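import Cfsg.Agent.H46.TypeG2
import Cfsg.Agent.H46.Borel
import Cfsg.Agent.H70.SLGen

/-!
# The subgroup `SL₃ ≤ G₂` on the long roots

The adjoint module of G₂ restricted to `SL₃` is `sl₃ ⊕ V ⊕ V*`. We write the resulting homomorphism as an explicit
matrix product `Pm * ρ g * Im` with integer matrices `Pm`, `Im`.
-/

set_option autoImplicit false

namespace Cfsg.Agent.H23.G2Torus

open Cfsg.Lie Cfsg.Agent.H46
open Matrix
open scoped Kronecker MatrixGroups

/-- Coordinates of `gl₃ ⊕ V ⊕ V*`. -/
abbrev W : Type := (Fin 3 × Fin 3) ⊕ (Fin 3 ⊕ Fin 3)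

/-- The coordinate of each root vector. -/
def posW : Fin 12 → W :=
  ![.inl (2, 0), .inl (2, 1), .inr (.inl 2), .inr (.inr 0), .inr (.inr 1), .inl (1, 0),
    .inl (0, 1), .inr (.inl 1), .inr (.inl 0), .inr (.inr 2), .inl (1, 2), .inl (0, 2)]

/-- Inclusion of the adjoint module into `gl₃ ⊕ V ⊕ V*`. -/
def Im : Matrix W chevG2.Idx ℤ :=
  Matrix.of fun w c => match c, w with
    | .inl i, .inl (a, b) => if a = b then (![![-1, 2, -1], ![1, -1, 0]] : Fin 2 → Fin 3 → ℤ) i a else 0
    | .inl _, .inr _ => 0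
    | .inr r, w => if posW r = w then 1 else 0

/-- Projection onto the adjoint module. -/
def Pm : Matrix chevG2.Idx W ℤ :=
  Matrix.of fun r w => match r with
    | .inl i => (![if w = .inl (2, 2) then -1 else 0,
        (if w = .inl (0, 0) then 1 else 0) + (if w = .inl (2, 2) then -1 else 0)] : Fin 2 → ℤ) i
    | .inr r => if posW r = w then 1 else 0

/-- The trace functional. -/
def tr : Matrix Unit W ℤ := Matrix.of fun _ w => match w with
    | .inl (a, b) => if a = b then 1 else 0
    | .inr _ => 0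

/-- The complement of the image. -/
def cc : Matrix W Unit ℤ := Matrix.of fun w _ => if w = .inl (1, 1) then 1 else 0

theorem Pm_mul_Im : Pm * Im = 1 := by decide +kernel

theorem Im_mul_Pm : Im * Pm = 1 - cc * tr := by decide +kernel

theorem tr_mul_Im : tr * Im = 0 := by decide +kernel

variable {F : Type*} [Field F]

local notation "SL3" => Matrix.SpecialLinearGroup (Fin 3) F

/-- The representation on `gl₃ ⊕ V ⊕ V*`. -/
def ρ (g : SL3) : Matrix W W F :=
  fromBlocks ((g : Matrix (Fin 3) (Fin 3) F) ⊗ₖ ((g⁻¹ : SL3) : Matrix (Fin 3) (Fin 3) F)ᵀ) 0 0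
    (fromBlocks (g : Matrix (Fin 3) (Fin 3) F) 0 0 ((g⁻¹ : SL3) : Matrix (Fin 3) (Fin 3) F)ᵀ)

theorem ρ_one : ρ (1 : SL3) = 1 := by
  simp [ρ, fromBlocks_one]

theorem ρ_mul (g h : SL3) : ρ (g * h) = ρ g * ρ h := by
  simp only [ρ, fromBlocks_multiply, _root_.mul_inv_rev, Matrix.SpecialLinearGroup.coe_mul, Matrix.transpose_mul,
    Matrix.mul_zero, Matrix.zero_mul, add_zero, zero_add, ← mul_kronecker_mul]

theorem tr_mul_ρ (g : SL3) : tr.map (Int.cast : ℤ → F) * ρ g = tr.map Int.cast := by
  ext u w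
  rw [Matrix.mul_apply, Fintype.sum_sum_type]
  rcases w with ⟨c, d⟩ | w
  · have h := congrFun (congrFun (congrArg Subtype.val (inv_mul_cancel g)) d) c
    rw [Matrix.SpecialLinearGroup.coe_mul, Matrix.mul_apply] at h
    simp only [Matrix.map_apply, tr, Matrix.of_apply, ρ, fromBlocks_apply₁₁, fromBlocks_apply₂₁,
      Matrix.zero_apply, mul_zero, Finset.sum_const_zero, add_zero, Fintype.sum_prod_type, kroneckerMap_apply,
      transpose_apply, Int.cast_ite, Int.cast_one, Int.cast_zero, ite_mul, one_mul, zero_mul, Finset.sum_ite_eq,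
      Finset.mem_univ, if_true]
    rw [show (∑ x, g.1 x c * (g⁻¹ : SL3).1 d x) = ∑ x, (g⁻¹ : SL3).1 d x * g.1 x c from
      Finset.sum_congr rfl fun _ _ => mul_comm _ _, h]
    rw [Matrix.SpecialLinearGroup.coe_one, Matrix.one_apply]
    simp only [eq_comm]
  · simp [tr, ρ]

/-- The integer matrices over the field. -/
abbrev PmF (F : Type*) [Field F] : Matrix chevG2.Idx W F := Pm.map (Int.castRingHom F)

/-- The integer matrices over the field. -/
abbrev ImF (F : Type*) [Field F] : Matrix W chevG2.Idx F := Im.map (Int.castRingHom F)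

theorem PmF_mul_ImF : PmF F * ImF F = 1 := by
  rw [← Matrix.map_mul, Pm_mul_Im, Matrix.map_one _ (map_zero _) (map_one _)]

/-- The matrix of an element in the adjoint module. -/
def φMat (g : SL3) : Matrix chevG2.Idx chevG2.Idx F := PmF F * ρ g * ImF F

theorem ImF_PmF_ρ (g : SL3) : ImF F * PmF F * (ρ g * ImF F) = ρ g * ImF F := by
  rw [← Matrix.map_mul, Im_mul_Pm]
  rw [Matrix.map_sub _ (map_sub _), Matrix.map_one _ (map_zero _) (map_one _), Matrix.map_mul, Matrix.sub_mul,
    Matrix.one_mul, Matrix.mul_assoc, ← Matrix.mul_assoc (tr.map _)]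
  rw [show tr.map (Int.castRingHom F) * ρ g = tr.map (Int.castRingHom F) from tr_mul_ρ g, ← Matrix.map_mul,
    tr_mul_Im, Matrix.map_zero _ (map_zero _), Matrix.mul_zero, sub_zero]

theorem φMat_mul (g h : SL3) : φMat (g * h) = φMat g * φMat h := by
  unfold φMat
  rw [ρ_mul, Matrix.mul_assoc (PmF F * ρ g) (ImF F), Matrix.mul_assoc (PmF F) (ρ h),
    ← Matrix.mul_assoc (ImF F) (PmF F), ImF_PmF_ρ, ← Matrix.mul_assoc, ← Matrix.mul_assoc]

theorem φMat_one : φMat (1 : SL3) = 1 := by
  rw [φMat, ρ_one, Matrix.mul_one, PmF_mul_ImF]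

/-- The homomorphism `SL₃(F) → GL(L_F)`. -/
noncomputable def φ : SL3 →* GL chevG2.Idx F :=
  MonoidHom.toHomUnits { toFun := φMat, map_one' := φMat_one, map_mul' := φMat_mul }

theorem coe_φ (g : SL3) : (φ g : Matrix chevG2.Idx chevG2.Idx F) = φMat g := rfl

theorem φMat_inr (g : SL3) (r s : Fin 12) :
    φMat g (.inr r) (.inr s) = ρ g (posW r) (posW s) := by
  simp [φMat, Matrix.mul_apply, Pm, Im]

theorem φ_injective : Function.Injective (φ (F := F)) := by
  intro g h e
  have e' : ∀ r s : Fin 12, ρ g (posW r) (posW s) = ρ h (posW r) (posW s) := fun r s => by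
    rw [← φMat_inr, ← φMat_inr, ← coe_φ, ← coe_φ, e]
  apply Subtype.ext
  ext i j
  have := e' (![8, 7, 2] i) (![8, 7, 2] j)
  fin_cases i <;> fin_cases j <;> simpa [ρ, posW] using this

section gens

/-- Coefficient of `t` in `x_r(t)` for a long root `r`. -/
def coef1 (r : Fin chevG2.nroots) : Matrix chevG2.Idx chevG2.Idx ℤ :=
  Matrix.of fun row col => match col with
    | .inl i => (match row with
      | .inl _ => 0
      | .inr u => if u = r then -((chevG2.cartanSR.getD i.val #[]).getD r.val 0) else 0)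
    | .inr s =>
      if s = r then 0
      else if s.val = chevG2.negIdx.getD r.val 0 then
        (match row with
         | .inl i => (chevG2.coroot.getD r.val #[]).getD i.val 0
         | .inr _ => 0)
      else (match row with
         | .inl _ => 0
         | .inr u => ((chevG2.chainCoeff r.val s.val u.val).map fun km => km.2).sum)

/-- Coefficient of `t²` in `x_r(t)` for a long root `r`. -/
def coef2 (r : Fin chevG2.nroots) : Matrix chevG2.Idx chevG2.Idx ℤ :=
  Matrix.of fun row col => if row = .inr r ∧ (∃ s : Fin chevG2.nroots, col = .inr s ∧ s ≠ r ∧ s.val = chevG2.negIdx.getD r.val 0)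
    then -1 else 0

theorem sum_lin (L : List (ℕ × ℤ)) (t : F) (h : ∀ km ∈ L, km.1 = 1) :
    (L.map fun km => ((km.2 : ℤ) : F) * t ^ km.1).sum = t * ((L.map fun km => km.2).sum : ℤ) := by
  induction L with
  | nil => simp
  | cons a L ih =>
    rw [List.map_cons, List.map_cons, List.sum_cons, List.sum_cons, ih fun km hkm => h km (List.mem_cons_of_mem _ hkm),
      h a List.mem_cons_self, pow_one, Int.cast_add]
    ring

theorem xMat_eq (r : Fin chevG2.nroots) (hr : ∀ s u : Fin chevG2.nroots, ∀ km ∈ chevG2.chainCoeff r.val s.val u.val, km.1 = 1)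
    (t : F) :
    chevG2.xMat F r t = 1 + t • (coef1 r).map (Int.castRingHom F) + t ^ 2 • (coef2 r).map (Int.castRingHom F) := by
  ext row col
  simp only [Matrix.add_apply, Matrix.smul_apply, Matrix.map_apply, smul_eq_mul, eq_intCast]
  rcases col with i | s
  · rcases row with i' | u
    · simp [ChevalleyDatum.xMat, coef1, coef2, Matrix.one_apply]
    · by_cases h : u = r <;> simp [ChevalleyDatum.xMat, coef1, coef2, Matrix.one_apply, h, mul_comm]
  · by_cases hs : s = r
    · subst hs
      rcases row with i' | u <;> simp [ChevalleyDatum.xMat, coef1, coef2, Matrix.one_apply]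
    · by_cases hn : s.val = (chevG2.negIdx[r.val]?).getD 0
      · rcases row with i' | u
        · simp [ChevalleyDatum.xMat, coef1, coef2, Matrix.one_apply, hs, hn, mul_comm]
        · by_cases hu : u = r
          · subst hu
            simp [ChevalleyDatum.xMat, coef1, coef2, Matrix.one_apply, hs, hn, Ne.symm hs]
          · simp [ChevalleyDatum.xMat, coef1, coef2, Matrix.one_apply, hs, hn, hu]
      · rcases row with i' | u
        · simp [ChevalleyDatum.xMat, coef1, coef2, Matrix.one_apply, hs, hn]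
        · simp [ChevalleyDatum.xMat, coef1, coef2, Matrix.one_apply, hs, hn, sum_lin _ t (hr s u)]

/-- The long root attached to an off-diagonal position. -/
def longRoot : Fin 3 → Fin 3 → Fin chevG2.nroots :=
  (![![0, 6, 11], ![5, 0, 10], ![0, 1, 0]] : Fin 3 → Fin 3 → Fin 12)

/-- Linear coefficient of `ρ` on a transvection. -/
def R1 (i j : Fin 3) : Matrix W W ℤ :=
  fromBlocks (Matrix.single i j 1 ⊗ₖ (1 : Matrix (Fin 3) (Fin 3) ℤ) - (1 : Matrix (Fin 3) (Fin 3) ℤ) ⊗ₖ Matrix.single j i 1) 0 0
    (fromBlocks (Matrix.single i j 1) 0 0 (-Matrix.single j i 1))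

/-- Quadratic coefficient of `ρ` on a transvection. -/
def R2 (i j : Fin 3) : Matrix W W ℤ :=
  fromBlocks (-(Matrix.single i j (1 : ℤ) ⊗ₖ Matrix.single j i (1 : ℤ))) 0 0 0

theorem coef_check : ∀ i j : Fin 3, i ≠ j →
    Pm * R1 i j * Im = coef1 (longRoot i j) ∧ Pm * R2 i j * Im = coef2 (longRoot i j) ∧
      ∀ s u : Fin chevG2.nroots, ∀ km ∈ chevG2.chainCoeff (longRoot i j).val s.val u.val, km.1 = 1 := by
  decide +kernel

theorem ρ_transvection {i j : Fin 3} (h : i ≠ j) (t : F) :
    ρ (Matrix.SpecialLinearGroup.transvection h t) =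
      1 + t • (R1 i j).map (Int.castRingHom F) + t ^ 2 • (R2 i j).map (Int.castRingHom F) := by
  rw [ρ, Matrix.SpecialLinearGroup.transvection_inv]
  ext (⟨a, b⟩ | a | a) (⟨c, d⟩ | c | c) <;>
    simp [R1, R2, Matrix.SpecialLinearGroup.transvection_coe, Matrix.single_apply, Matrix.one_apply, Prod.ext_iff] <;>
    split_ifs <;> first | rfl | ring1 | grind

theorem φ_transvection {i j : Fin 3} (h : i ≠ j) (t : F) :
    φMat (Matrix.SpecialLinearGroup.transvection h t) = chevG2.x F (longRoot i j).val t := by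
  obtain ⟨h1, h2, h3⟩ := coef_check i j h
  rw [ChevalleyDatum.x, dif_pos (show (longRoot i j).val < chevG2.nroots from (longRoot i j).2),
    show (⟨(longRoot i j).val, (longRoot i j).2⟩ : Fin chevG2.nroots) = longRoot i j from rfl,
    xMat_eq _ h3, φMat, ρ_transvection h, ← h1, ← h2]
  simp only [Matrix.map_mul, Matrix.mul_add, Matrix.add_mul, Matrix.mul_one, Matrix.mul_smul, Matrix.smul_mul,
    PmF_mul_ImF]

theorem φ_mem_group (g : SL3) : φ g ∈ chevG2.group F := by
  have h : (chevG2.group F).comap (φ (F := F)) = ⊤ :=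
    Cfsg.Agent.H70.eq_top_of_transvection_mem _ fun i j hij c =>
      Subgroup.subset_closure ⟨longRoot i j, c, by
        rw [coe_φ, φ_transvection hij c]
        simp [ChevalleyDatum.x]⟩
  exact (h ▸ Subgroup.mem_top g : g ∈ (chevG2.group F).comap (φ (F := F)))

end gens

section functorial

variable {K : Type*} [Field K] (f : F →+* K)

theorem φMat_map (g : SL3) : φMat (Matrix.SpecialLinearGroup.map f g) = (φMat g).map f := by
  have hρ : ρ (Matrix.SpecialLinearGroup.map f g) = (ρ g).map f := by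
    have ha : ((g : Matrix (Fin 3) (Fin 3) F).map f).adjugate = (g : Matrix (Fin 3) (Fin 3) F).adjugate.map f :=
      (f.map_adjugate _).symm
    ext (⟨a, b⟩ | a | a) (⟨c, d⟩ | c | c) <;> simp [ρ, ha]
  have hP : PmF K = (PmF F).map f := by ext; simp
  have hI : ImF K = (ImF F).map f := by ext; simp
  rw [φMat, φMat, Matrix.map_mul, Matrix.map_mul, hρ, hP, hI]

end functorial

end Cfsg.Agent.H23.G2Torus
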