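import Cfsg.Agent.H23.G2Torus.Torus
import Cfsg.Agent.H47.FieldMap

/-!
# The Singer torus of order `q² + q + 1`
-/

set_option autoImplicit false

namespace Cfsg.Agent.H23.G2Torus

open Cfsg.Lie Cfsg.Agent.H46
open scoped Matrix

/-- Exponents `(x, y)`, meaning `a ^ (x + y q)`, of the twelve roots. -/
def expo : Fin 12 → ℤ × ℤ :=
  ![(-2, -1), (-1, -2), (-1, -1), (-1, 0), (0, -1), (-1, 1), (1, -1), (0, 1), (1, 0), (1, 1), (1, 2), (2, 1)]

theorem expo_ne {q : ℕ} (hq : 3 ≤ q) (r : Fin 12) :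
    ¬ ((q ^ 2 + q + 1 : ℕ) : ℤ) ∣ ((expo r).1 + (expo r).2 * q) := by
  intro h
  have hq' : (3 : ℤ) ≤ q := by exact_mod_cast hq
  have h0 : (expo r).1 + (expo r).2 * q = 0 := by
    refine Int.eq_zero_of_abs_lt_dvd h ?_
    push_cast
    rw [abs_lt]
    constructor <;> fin_cases r <;> simp [expo] <;> nlinarith
  fin_cases r <;> simp [expo] at h0 <;> omega

theorem expo_sep : ∀ r s : Fin 12,
    r = s ∨ ((expo r).1 ≠ (expo s).1 ∨ (expo r).2 ≠ (expo s).2) ∧
      ((expo r).1 - (expo s).1).natAbs ≤ 4 ∧ ((expo r).2 - (expo s).2).natAbs ≤ 4 := by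
  decide

theorem expo_three : ∀ r s : Fin 12,
    (13 : ℤ) ∣ ((expo r).1 + (expo r).2 * 3 - ((expo s).1 + (expo s).2 * 3)) → r = s := by
  decide

theorem expo_four : ∀ r s : Fin 12,
    (21 : ℤ) ∣ ((expo r).1 + (expo r).2 * 4 - ((expo s).1 + (expo s).2 * 4)) → r = s := by
  decide

theorem expo_inj {q : ℕ} (hq : 3 ≤ q) {r s : Fin 12}
    (h : ((q ^ 2 + q + 1 : ℕ) : ℤ) ∣ ((expo r).1 + (expo r).2 * q - ((expo s).1 + (expo s).2 * q))) : r = s := by
  rcases (show q = 3 ∨ q = 4 ∨ 5 ≤ q by omega) with rfl | rfl | h5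
  · exact expo_three r s h
  · exact expo_four r s h
  · rcases expo_sep r s with h' | ⟨hne, hx, hy⟩
    · exact h'
    · exfalso
      set x := (expo r).1 - (expo s).1 with hxdef
      set y := (expo r).2 - (expo s).2 with hydef
      have hx' : |x| ≤ 4 := by rw [Int.abs_eq_natAbs]; exact_mod_cast hx
      have hy' : |y| ≤ 4 := by rw [Int.abs_eq_natAbs]; exact_mod_cast hy
      have hq' : (5 : ℤ) ≤ q := by exact_mod_cast h5
      have h0 : x + y * q = 0 := by
        refine Int.eq_zero_of_abs_lt_dvd (m := ((q ^ 2 + q + 1 : ℕ) : ℤ)) ?_ ?_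
        · have e : x + y * q = (expo r).1 + (expo r).2 * q - ((expo s).1 + (expo s).2 * q) := by
            rw [hxdef, hydef]; ring
          rw [e]; exact h
        · rw [abs_le] at hx' hy'
          rw [abs_lt]
          push_cast
          constructor <;> nlinarith
      have hy0 : y = 0 := by
        by_contra hy0
        have h1 : (q : ℤ) ≤ |y| * q := le_mul_of_one_le_left (by omega) (Int.one_le_abs hy0)
        have h2 : |y * (q : ℤ)| = |y| * q := by rw [abs_mul, Nat.abs_cast]
        rw [show y * (q : ℤ) = -x by linarith, abs_neg] at h2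
        omega
      rw [hy0] at h0
      omega

variable {K : Type*} [Field K]

/-- The entrywise map on `GL(L)` induced by a field homomorphism. -/
def fmap {F : Type*} [Field F] (f : F →+* K) : GL chevG2.Idx F →* GL chevG2.Idx K :=
  Units.map (f.mapMatrix (m := chevG2.Idx)).toMonoidHom

theorem coe_fmap {F : Type*} [Field F] (f : F →+* K) (g : GL chevG2.Idx F) :
    ((fmap f g : GL chevG2.Idx K) : Matrix chevG2.Idx chevG2.Idx K) =
      (g : Matrix chevG2.Idx chevG2.Idx F).map f := rfl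

theorem fmap_injective {F : Type*} [Field F] (f : F →+* K) : Function.Injective (fmap f) := fun _ _ e =>
  Units.ext <| Matrix.map_injective f.injective (congrArg Units.val e :)

theorem fmap_mem_group {F : Type*} [Field F] (f : F →+* K) {g : GL chevG2.Idx F} (hg : g ∈ chevG2.group F) :
    fmap f g ∈ chevG2.group K :=
  H47.map_group_le chevG2 f ⟨g, hg, rfl⟩

/-- The values of a regular element. -/
def singerVal (a : Kˣ) (q : ℕ) : Fin 3 → K :=
  ![(a : K), ((a ^ (q : ℤ) : Kˣ) : K), ((a ^ (-1 - (q : ℤ)) : Kˣ) : K)]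

theorem singerVal_pow (a : Kˣ) (q i : ℕ) (k : Fin 3) : singerVal (a ^ i) q k = singerVal a q k ^ i := by
  fin_cases k <;> simp [singerVal, ← Units.val_pow_eq_pow_val, ← zpow_natCast, ← zpow_mul, mul_comm]

theorem wVal_singerVal (a : Kˣ) (q : ℕ) (r : Fin 12) :
    wVal (singerVal a q) (posW r) = ((a ^ ((expo r).1 + (expo r).2 * q) : Kˣ) : K) := by
  fin_cases r <;> simp [wVal, posW, singerVal, expo, zpow_add, zpow_sub, zpow_neg, zpow_mul] <;> (try field_simp) <;> (try ring)

variable {F : Type*} [Field F]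

local notation "SL3" => Matrix.SpecialLinearGroup (Fin 3) K

theorem exists_torus (d : Fin 3 → K) (hd : d 0 * d 1 * d 2 = 1) :
    ∃ z : Fin chevG2.rank → Kˣ, diagOf z = d := by
  have h2 : d 2 ≠ 0 := fun h => by simp [h] at hd
  have h0 : d 0 ≠ 0 := fun h => by simp [h] at hd
  refine ⟨(![(Units.mk0 _ h2)⁻¹, Units.mk0 _ h0 * (Units.mk0 _ h2)⁻¹] : Fin 2 → Kˣ), ?_⟩
  funext i
  fin_cases i <;> simp [diagOf, Units.val_div_eq_div_val] <;> (try field_simp) <;> linear_combination -hd

theorem torusVal_eq (z : Fin chevG2.rank → Kˣ) (r : Fin chevG2.nroots) :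
    ((goodG2.torusVal z r : Kˣ) : K) = wVal (diagOf z) (posW r) := by
  have h := congrArg (fun g : GL chevG2.Idx K => (g : Matrix chevG2.Idx chevG2.Idx K) (.inr r) (.inr r))
    (φ_diagSL z)
  simp only [coe_φ, goodG2.coe_torus, rdiag, Matrix.diagonal_apply_eq, Sum.elim_inr,
    φMat_diag (g := diagSL z) rfl (fun i => show diagOf z i ≠ 0 by fin_cases i <;> exact Units.ne_zero _), gVal] at h
  exact h.symm

/-- The centralizer in `G₂(K)` of the regular element consists of diagonal elements of `SL₃`. -/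
theorem eq_diag_of_commute {q : ℕ} (hq : 3 ≤ q) (a : Kˣ) (ha : orderOf a = q ^ 2 + q + 1) {D : SL3}
    (hD : D.1 = Matrix.diagonal (singerVal a q)) {g : GL chevG2.Idx K} (hg : g ∈ chevG2.group K)
    (hc : g * φ D = φ D * g) : ∃ z, g = φ (diagSL z) := by
  obtain ⟨z, hz⟩ := exists_torus (singerVal a q) (by
    simp only [singerVal, Matrix.cons_val]
    rw [← Units.val_mul, ← Units.val_mul, ← zpow_one_add, ← zpow_add, show (1 + (q : ℤ) + (-1 - q)) = 0 by ring,
      zpow_zero, Units.val_one])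
  have hDz : D = diagSL z := Subtype.ext (hD.trans (congrArg _ hz.symm))
  rw [hDz, φ_diagSL] at hc
  have hval : ∀ r : Fin chevG2.nroots,
      goodG2.torusVal z r = a ^ ((expo r).1 + (expo r).2 * q) := fun r => by
    apply Units.ext
    rw [torusVal_eq, hz]
    exact wVal_singerVal a q r
  refine diagonal_eq_image (mem_diagonal_of_commute goodG2 z (fun r hr h => ?_) (fun r s h => ?_) hg hc)
  · rw [hval ⟨r, hr⟩, ← orderOf_dvd_iff_zpow_eq_one, ha] at h
    exact expo_ne hq _ h
  · rw [hval r, hval s, ← mul_inv_eq_one, ← zpow_sub, ← orderOf_dvd_iff_zpow_eq_one, ha] at h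
    exact expo_inj hq h

theorem coe_slMap {f : F →+* K} (N : Matrix.SpecialLinearGroup (Fin 3) F) :
    (Matrix.SpecialLinearGroup.map f N).1 = N.1.map f := rfl

theorem fmap_φ (f : F →+* K) (N : Matrix.SpecialLinearGroup (Fin 3) F) :
    fmap f (φ N) = φ (Matrix.SpecialLinearGroup.map f N) := by
  apply Units.ext
  rw [coe_fmap, coe_φ, coe_φ, φMat_map]

/-- The centralizer of a Singer element. -/
theorem exists_pow_of_commute {q : ℕ} (hq : 3 ≤ q) (f : F →+* K) (σ : K →+* K) (hσf : ∀ x, σ (f x) = f x)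
    (hσ : ∀ x, σ x = x ^ q) (a : Kˣ) (ha : orderOf a = q ^ 2 + q + 1)
    (V : Matrix (Fin 3) (Fin 3) K) (hV : V.det ≠ 0) (hV0 : ∀ j, σ (V 0 j) = V 1 j) (hV1 : ∀ j, σ (V 1 j) = V 2 j)
    (M : Matrix.SpecialLinearGroup (Fin 3) F) (hM : V * M.1.map f = Matrix.diagonal (singerVal a q) * V)
    {g : GL chevG2.Idx F} (hg : g ∈ chevG2.group F) (hc : g * φ M = φ M * g) : ∃ i : ℕ, g = φ (M ^ i) := by
  have hdet : (Matrix.diagonal (singerVal a q)).det = 1 := by
    have h := congrArg Matrix.det hM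
    rw [Matrix.det_mul, Matrix.det_mul, ← RingHom.mapMatrix_apply, ← RingHom.map_det, M.2, map_one, mul_one] at h
    exact mul_right_cancel₀ hV (h.symm.trans (one_mul _).symm)
  let D : SL3 := ⟨_, hdet⟩
  let δ : Fin 3 → K := ![V.det⁻¹, 1, 1]
  let P : SL3 := ⟨Matrix.diagonal δ * V, by
    rw [Matrix.det_mul, Matrix.det_diagonal, Fin.prod_univ_three]
    simp only [δ, Matrix.cons_val, mul_one]
    exact inv_mul_cancel₀ hV⟩
  have hPM : P * Matrix.SpecialLinearGroup.map f M = D * P := by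
    apply Subtype.ext
    change Matrix.diagonal δ * V * M.1.map f = Matrix.diagonal (singerVal a q) * (Matrix.diagonal δ * V)
    rw [Matrix.mul_assoc, hM, ← Matrix.mul_assoc, ← Matrix.mul_assoc, Matrix.diagonal_mul_diagonal,
      Matrix.diagonal_mul_diagonal]
    simp only [mul_comm]
  set g' := fmap f g with hg'
  have hg'K : g' ∈ chevG2.group K := fmap_mem_group f hg
  have hc' : g' * φ (Matrix.SpecialLinearGroup.map f M) = φ (Matrix.SpecialLinearGroup.map f M) * g' := by
    rw [← fmap_φ, hg', ← map_mul, hc, map_mul]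
  have hφ : φ D = φ P * φ (Matrix.SpecialLinearGroup.map f M) * (φ P)⁻¹ := by
    rw [← map_mul, hPM, map_mul, mul_inv_cancel_right]
  obtain ⟨z, hz⟩ := eq_diag_of_commute hq a ha (D := D) rfl (g := φ P * g' * (φ P)⁻¹)
    (mul_mem (mul_mem (φ_mem_group P) hg'K) (inv_mem (φ_mem_group P))) (by
      rw [hφ]
      calc φ P * g' * (φ P)⁻¹ * (φ P * φ (Matrix.SpecialLinearGroup.map f M) * (φ P)⁻¹)
          = φ P * (g' * φ (Matrix.SpecialLinearGroup.map f M)) * (φ P)⁻¹ := by group
        _ = φ P * (φ (Matrix.SpecialLinearGroup.map f M) * g') * (φ P)⁻¹ := by rw [hc']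
        _ = _ := by group)
  have hg'' : g' = φ (P⁻¹ * diagSL z * P) := by
    rw [map_mul, map_mul, map_inv, ← hz]; group
  let M' := P⁻¹ * diagSL z * P
  let N : Matrix (Fin 3) (Fin 3) F := Matrix.of fun i j =>
    (g : Matrix chevG2.Idx chevG2.Idx F) (.inr ((![8, 7, 2] : Fin 3 → Fin 12) i)) (.inr ((![8, 7, 2] : Fin 3 → Fin 12) j))
  have hN : N.map f = M'.1 := by
    ext i j
    have h := congrArg (fun g : GL chevG2.Idx K => (g : Matrix chevG2.Idx chevG2.Idx K)
      (.inr ((![8, 7, 2] : Fin 3 → Fin 12) i)) (.inr ((![8, 7, 2] : Fin 3 → Fin 12) j))) hg''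
    simp only [hg', coe_fmap, coe_φ, φMat_inr, Matrix.map_apply] at h
    rw [Matrix.map_apply]
    refine h.trans ?_
    fin_cases i <;> fin_cases j <;> simp [ρ, posW, M']
  have hNdet : N.det = 1 := f.injective (by
    rw [RingHom.map_det, RingHom.mapMatrix_apply, hN, M'.2, map_one])
  let N' : Matrix.SpecialLinearGroup (Fin 3) F := ⟨N, hNdet⟩
  have hgN : g = φ N' := fmap_injective f (by
    rw [fmap_φ, ← hg', hg'']
    exact congrArg φ (Subtype.ext hN.symm))
  have hPN : P.1 * N.map f = Matrix.diagonal (diagOf z) * P.1 := by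
    rw [hN]
    change (P * (P⁻¹ * diagSL z * P)).1 = (diagSL z * P).1
    rw [mul_assoc P⁻¹, mul_inv_cancel_left]
  have hVN : V * N.map f = Matrix.diagonal (diagOf z) * V := by
    have h : Matrix.diagonal δ⁻¹ * P.1 = V := by
      change Matrix.diagonal δ⁻¹ * (Matrix.diagonal δ * V) = V
      rw [← Matrix.mul_assoc, Matrix.diagonal_mul_diagonal]
      rw [show (fun i => δ⁻¹ i * δ i) = fun _ => (1 : K) from funext fun i => inv_mul_cancel₀ (by
        fin_cases i <;> simp [δ, hV]), Matrix.diagonal_one, Matrix.one_mul]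
    have hcomm : Matrix.diagonal δ⁻¹ * Matrix.diagonal (diagOf z) =
        Matrix.diagonal (diagOf z) * Matrix.diagonal δ⁻¹ := by
      rw [Matrix.diagonal_mul_diagonal, Matrix.diagonal_mul_diagonal]
      simp only [mul_comm]
    calc V * N.map f = Matrix.diagonal δ⁻¹ * P.1 * N.map f := by rw [h]
      _ = Matrix.diagonal δ⁻¹ * Matrix.diagonal (diagOf z) * P.1 := by
          rw [Matrix.mul_assoc, hPN, Matrix.mul_assoc]
      _ = Matrix.diagonal (diagOf z) * V := by rw [hcomm, Matrix.mul_assoc, h]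
  have hstep : ∀ k l : Fin 3, (∀ j, σ (V k j) = V l j) → diagOf z l = σ (diagOf z k) := by
    intro k l hkl
    obtain ⟨j, hj⟩ : ∃ j, V l j ≠ 0 := by
      by_contra hall
      push_neg at hall
      exact hV (Matrix.det_eq_zero_of_row_eq_zero l hall)
    have e := congrArg σ (congrFun (congrFun hVN k) j)
    have e' := congrFun (congrFun hVN l) j
    rw [Matrix.diagonal_mul, Matrix.mul_apply] at e e'
    simp only [Matrix.map_apply, map_sum, map_mul, hkl, hσf] at e e'
    exact mul_right_cancel₀ hj (e'.symm.trans e)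
  have hd1 : diagOf z 1 = diagOf z 0 ^ q := by rw [hstep 0 1 hV0, hσ]
  have hd2 : diagOf z 2 = diagOf z 0 ^ (q * q) := by rw [hstep 1 2 hV1, hd1, map_pow, hσ, ← pow_mul]
  have hprod : diagOf z 0 * diagOf z 1 * diagOf z 2 = 1 := by
    have := det_diagOf z
    rwa [Matrix.det_diagonal, Fin.prod_univ_three] at this
  have hN1 : diagOf z 0 ^ (q ^ 2 + q + 1) = 1 := by
    rw [← hprod, hd1, hd2]; ring
  haveI : NeZero (q ^ 2 + q + 1) := ⟨by positivity⟩
  obtain ⟨i, -, hi⟩ := (IsPrimitiveRoot.coe_units_iff.2 (ha ▸ IsPrimitiveRoot.orderOf a)).eq_pow_of_pow_eq_one hN1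
  refine ⟨i, ?_⟩
  have hsv : diagOf z = fun k => singerVal a q k ^ i := by
    funext k
    have h1 : diagOf z 1 = singerVal a q 1 ^ i := by
      rw [hd1, ← hi]
      simp only [singerVal, Matrix.cons_val, zpow_natCast, Units.val_pow_eq_pow_val, ← pow_mul, mul_comm]
    fin_cases k
    · exact hi.symm
    · exact h1
    · have h01 : diagOf z 0 * diagOf z 1 ≠ 0 := fun h => by rw [h, zero_mul] at hprod; exact zero_ne_one hprod
      refine mul_left_cancel₀ h01 ?_
      change diagOf z 0 * diagOf z 1 * diagOf z 2 = diagOf z 0 * diagOf z 1 * singerVal a q 2 ^ i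
      rw [hprod, h1, ← hi, ← mul_pow, ← mul_pow]
      have hp : singerVal a q 0 * singerVal a q 1 * singerVal a q 2 = 1 := by
        rwa [Matrix.det_diagonal, Fin.prod_univ_three] at hdet
      rw [show ((a : K) * singerVal a q 1 * singerVal a q 2) = singerVal a q 0 * singerVal a q 1 * singerVal a q 2 from rfl,
        hp, one_pow]
  have hD' : diagSL z = D ^ i := Subtype.ext (by
    rw [Matrix.SpecialLinearGroup.coe_pow]
    change Matrix.diagonal (diagOf z) = Matrix.diagonal (singerVal a q) ^ i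
    rw [Matrix.diagonal_pow, hsv]
    rfl)
  rw [hgN]
  congr 1
  apply Subtype.ext
  apply Matrix.map_injective f.injective
  change N.map f = (M ^ i).1.map f
  rw [hN, ← coe_slMap, map_pow]
  refine congrArg Subtype.val ?_
  change P⁻¹ * diagSL z * P = _
  rw [hD']
  calc P⁻¹ * D ^ i * P = (P⁻¹ * D * P⁻¹⁻¹) ^ i := by rw [conj_pow, inv_inv]
    _ = _ := by rw [inv_inv, mul_assoc, ← hPM, inv_mul_cancel_left]

/-- The group `G₂(q)` has a self-centralizing cyclic subgroup of order `q² + q + 1`. -/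
theorem exists_selfCentralizing {F : Type*} [Field F] [Fintype F] (q : ℕ) (hF : Fintype.card F = q) (hq : 3 ≤ q) :
    ∃ H : Subgroup ↥(chevG2.group F), IsCyclic ↥H ∧ Nat.card ↥H = q ^ 2 + q + 1 ∧
      Subgroup.centralizer (H : Set ↥(chevG2.group F)) = H := by
  obtain ⟨p, hp⟩ := CharP.exists F
  haveI : Fact p.Prime := ⟨CharP.char_is_prime F p⟩
  have hqF : Nat.card F = q := by rw [Nat.card_eq_fintype_card, hF]
  let K := FiniteField.Extension F p 3
  haveI : Fintype K := Fintype.ofFinite K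
  let σ : K →+* K := (FiniteField.Extension.frob F p 3 : K ≃ₐ[F] K).toAlgHom.toRingHom
  let f : F →+* K := algebraMap F K
  have hσ : ∀ x, σ x = x ^ q := fun x => by
    change FiniteField.Extension.frob F p 3 x = _
    rw [FiniteField.Extension.frob_apply, hqF]
  have hσf : ∀ x, σ (f x) = f x := fun x => (FiniteField.Extension.frob F p 3).commutes x
  have hK : Nat.card Kˣ = (q ^ 2 + q + 1) * (q - 1) := by
    rw [Nat.card_units, FiniteField.natCard_extension, hqF]
    obtain ⟨n, rfl⟩ : ∃ n, q = n + 1 := ⟨q - 1, by omega⟩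
    simp only [Nat.add_sub_cancel]
    exact Nat.sub_eq_of_eq_add (by ring)
  obtain ⟨g, hg⟩ := IsCyclic.exists_generator (α := Kˣ)
  have hgord : orderOf g = (q ^ 2 + q + 1) * (q - 1) := by
    rw [orderOf_eq_card_of_forall_mem_zpowers hg, hK]
  let a := g ^ (q - 1)
  have ha : orderOf a = q ^ 2 + q + 1 := by
    rw [orderOf_pow_of_dvd (by omega) (hgord ▸ dvd_mul_left _ _), hgord]
    exact Nat.mul_div_cancel _ (by omega)
  let b : Module.Basis (Fin 3) F K := Module.finBasisOfFinrankEq F K (FiniteField.finrank_extension F p 3)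
  let V : Matrix (Fin 3) (Fin 3) K := Matrix.of fun k j => (b j) ^ (q ^ (k : ℕ))
  have hV0 : ∀ j, σ (V 0 j) = V 1 j := fun j => by simp [V, hσ]
  have hV1 : ∀ j, σ (V 1 j) = V 2 j := fun j => by simp [V, hσ, ← pow_mul, pow_two]
  have hVσ : ∀ k : Fin 3, ∀ x : K, (σ ^ (k : ℕ)) x = x ^ (q ^ (k : ℕ)) := fun k x => by
    fin_cases k <;> simp [hσ, pow_two, ← pow_mul]
  have hV : V.det ≠ 0 := by
    intro h0
    obtain ⟨c, hc0, hc⟩ := Matrix.exists_vecMul_eq_zero_iff.2 h0
    refine hc0 (funext fun k => ?_)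
    let ψ : Fin 3 → (Kˣ →* K) := fun k => (Units.coeHom K).comp (powMonoidHom (q ^ (k : ℕ)))
    have hψ : Function.Injective ψ := by
      intro k l hkl
      have h := DFunLike.congr_fun hkl g
      simp only [ψ, MonoidHom.coe_comp, Function.comp_apply, powMonoidHom_apply, Units.coeHom_apply] at h
      have hlt : ∀ m : Fin 3, q ^ (m : ℕ) < orderOf g := fun m => by
        rw [hgord]
        calc q ^ (m : ℕ) ≤ q ^ 2 := Nat.pow_le_pow_right (by omega) (by omega)
          _ < (q ^ 2 + q + 1) * 1 := by omega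
          _ ≤ _ := Nat.mul_le_mul_left _ (by omega)
      exact Fin.ext (Nat.pow_right_injective (by omega : 2 ≤ q)
        (pow_injOn_Iio_orderOf (hlt k) (hlt l) (Units.ext h)))
    have hli := (linearIndependent_monoidHom Kˣ K).comp ψ hψ
    refine Fintype.linearIndependent_iff.1 hli c ?_ k
    funext u
    simp only [Finset.sum_apply, Pi.smul_apply, Function.comp_apply, Pi.zero_apply, smul_eq_mul]
    have hu : (∑ k, c k * (σ ^ (k : ℕ)) (∑ j, b.repr (u : K) j • b j)) = 0 := by
      simp only [map_sum, Algebra.smul_def, map_mul, Finset.mul_sum]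
      rw [Finset.sum_comm]
      refine Finset.sum_eq_zero fun j _ => ?_
      have hfix : ∀ (k : Fin 3) (x : F), (σ ^ (k : ℕ)) (f x) = f x := fun k x => by
        fin_cases k <;> simp [hσf, pow_two]
      simp only [show ∀ x, algebraMap F K x = f x from fun _ => rfl, hfix, hVσ, mul_left_comm (c _)]
      rw [← Finset.mul_sum]
      exact mul_eq_zero_of_right _ (congrFun hc j)
    rw [b.sum_repr] at hu
    simpa [ψ, hVσ] using hu
  have hM' : V * (Algebra.leftMulMatrix b (a : K)).map f = Matrix.diagonal (singerVal a q) * V := by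
    ext k j
    rw [Matrix.diagonal_mul, Matrix.mul_apply]
    have e : (σ ^ (k : ℕ)) ((a : K) * b j) = singerVal a q k * V k j := by
      rw [map_mul, hVσ, hVσ]
      congr 1
      fin_cases k
      · simp [singerVal]
      · simp [singerVal]
      · change (a : K) ^ q ^ 2 = ((a ^ (-1 - (q : ℤ)) : Kˣ) : K)
        rw [← Units.val_pow_eq_pow_val]
        refine congrArg Units.val ?_
        rw [← zpow_natCast, ← mul_inv_eq_one, ← zpow_sub, ← orderOf_dvd_iff_zpow_eq_one, ha]
        exact ⟨1, by push_cast; ring⟩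
    rw [← e, ← b.sum_repr ((a : K) * b j), map_sum]
    refine Finset.sum_congr rfl fun i _ => ?_
    have hfix : ∀ x : F, (σ ^ (k : ℕ)) (f x) = f x := fun x => by
      fin_cases k <;> simp [hσf, pow_two]
    rw [Matrix.map_apply, Algebra.leftMulMatrix_eq_repr_mul, Algebra.smul_def, map_mul (σ ^ (k : ℕ)),
      show algebraMap F K _ = f _ from rfl, hfix, hVσ, mul_comm]
    rfl
  have hdetM : (Algebra.leftMulMatrix b (a : K)).det = 1 := by
    have h := congrArg Matrix.det hM'
    rw [Matrix.det_mul, Matrix.det_mul, ← RingHom.mapMatrix_apply, ← RingHom.map_det, mul_comm] at h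
    refine f.injective ((mul_right_cancel₀ hV h).trans ?_)
    rw [Matrix.det_diagonal, Fin.prod_univ_three, map_one]
    simp only [singerVal, Matrix.cons_val]
    rw [← Units.val_mul, ← Units.val_mul, ← zpow_one_add, ← zpow_add, show (1 + (q : ℤ) + (-1 - q)) = 0 by ring,
      zpow_zero, Units.val_one]
  let M : Matrix.SpecialLinearGroup (Fin 3) F := ⟨_, hdetM⟩
  have hMord : orderOf M = q ^ 2 + q + 1 := by
    rw [← ha, ← orderOf_injective (Units.coeHom K) Units.val_injective a]
    refine orderOf_eq_orderOf_iff.2 fun n => ?_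
    rw [Units.coeHom_apply]
    refine Subtype.ext_iff.trans ?_
    rw [Matrix.SpecialLinearGroup.coe_pow, Matrix.SpecialLinearGroup.coe_one]
    change Algebra.leftMulMatrix b (a : K) ^ n = 1 ↔ _
    rw [← map_pow, ← map_one (Algebra.leftMulMatrix b), (Algebra.leftMulMatrix_injective b).eq_iff]
  let φ' : Matrix.SpecialLinearGroup (Fin 3) F →* ↥(chevG2.group F) := φ.codRestrict _ φ_mem_group
  have hφ' : Function.Injective φ' := fun u v h => φ_injective (congrArg Subtype.val h)
  refine ⟨Subgroup.zpowers (φ' M), inferInstance, ?_, le_antisymm ?_ ?_⟩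
  · rw [Nat.card_zpowers, orderOf_injective φ' hφ', hMord]
  · intro x hx
    have hx' : φ' M * x = x * φ' M := Subgroup.mem_centralizer_iff.1 hx _ (Subgroup.mem_zpowers _)
    obtain ⟨i, hi⟩ := exists_pow_of_commute hq f σ hσf hσ a ha V hV hV0 hV1 M hM' x.2
      (congrArg Subtype.val hx'.symm)
    exact ⟨(i : ℤ), Subtype.ext (by rw [hi]; simp [φ'])⟩
  · intro x hx
    refine Subgroup.mem_centralizer_iff.2 fun y hy => ?_
    obtain ⟨i, rfl⟩ := hx
    obtain ⟨j, rfl⟩ := hy
    exact ((Commute.refl (φ' M)).zpow_zpow _ _).eq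

end Cfsg.Agent.H23.G2Torus
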