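import Cfsg.Agent.H23.G2Torus.Embed
import Cfsg.Agent.H46.Bruhat

/-!
# Regular elements of the torus
-/

set_option autoImplicit false

namespace Cfsg.Agent.H23.G2Torus

open Cfsg.Lie Cfsg.Agent.H46
open Matrix

section general

variable {D : ChevalleyDatum} (G : Good D) {F : Type*} [Field F]

/-- Conjugation of an ordered product by a torus element. -/
theorem torus_conj_ordProd (z : Fin D.rank → Fˣ) (k : ℕ) (t : ℕ → F) :
    G.torus z * G.ordProd k t * (G.torus z)⁻¹ = G.ordProd k (fun r => (G.torusVal z r : F) * t r) := by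
  unfold Good.ordProd
  change MulAut.conj (G.torus z) _ = _
  rw [map_list_prod, List.map_map]
  congr 1
  refine List.map_congr_left fun r hr => ?_
  rw [List.mem_range'_1] at hr
  exact G.torus_conj_xg z (show r < D.nroots by omega) (t r)

/-- A positive unipotent element fixed by a regular torus element is trivial. -/
theorem eq_one_of_commute (z : Fin D.rank → Fˣ) (hz : ∀ r < D.nroots, G.torusVal z r ≠ 1) {u : GL D.Idx F}
    (hu : u ∈ D.posUnipotent F) (hc : G.torus z * u * (G.torus z)⁻¹ = u) : u = 1 := by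
  rw [G.posUnipotent_eq] at hu
  obtain ⟨t, ⟨-, rfl⟩, -⟩ := G.posSub_normal_form G.posClosed_univ hu
  rw [torus_conj_ordProd] at hc
  have h0 : ∀ r, D.nroots / 2 ≤ r → r < D.nroots → t r = 0 := fun r h1 h2 => by
    have h := G.ordProd_injective _ le_rfl _ _ hc r h1 h2
    by_contra hne
    exact hz r h2 (Units.ext (mul_right_cancel₀ hne (h.trans (one_mul (t r)).symm)))
  rw [G.ordProd_congr (t' := fun _ => 0) h0]
  exact List.prod_eq_one fun x hx => by
    obtain ⟨r, -, rfl⟩ := List.mem_map.1 hx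
    exact G.xg_zero r

/-- The centralizer of a torus element with distinct nontrivial root values is the torus. -/
theorem mem_diagonal_of_commute (z : Fin D.rank → Fˣ) (hz : ∀ r < D.nroots, G.torusVal z r ≠ 1)
    (hinj : ∀ r s : Fin D.nroots, G.torusVal z r = G.torusVal z s → r = s) {g : GL D.Idx F}
    (hg : g ∈ D.group F) (hc : g * G.torus z = G.torus z * g) : g ∈ D.diagonalSubgroup F := by
  set h := G.torus z with hh
  have hD : h ∈ D.diagonalSubgroup F := G.mem_diagonal.2 ⟨z, rfl⟩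
  have hB : h ∈ D.borelSubgroup F := Subgroup.mem_sup_right hD
  obtain ⟨n, hn, hcell⟩ := G.bruhat hg
  obtain ⟨b, hb, u, hu, rfl⟩ := G.bruhatCell_normal_form hn hcell
  obtain ⟨t, ⟨ht, hut⟩, -⟩ := G.posSub_normal_form (G.posClosed_invSet hn) hu
  have hu' : h⁻¹ * u * h ∈ G.posSub (G.invSet n) := by
    rw [hut, hh, ← map_inv]
    have := torus_conj_ordProd G z⁻¹ (D.nroots / 2) t
    rw [map_inv, inv_inv] at this
    rw [map_inv, this]
    exact G.ordProd_half_mem fun r hr hrS => by rw [ht r (Or.inl hrS), mul_zero]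
  obtain ⟨-, hue, hbe⟩ := G.bruhat_unique (b := b * (n * h * n⁻¹)) (b' := h * b) (n := n) (n' := n)
    (u := h⁻¹ * u * h) (u' := u) (mul_mem hb (Subgroup.mem_sup_right (G.diagonal_normalized hn hD)))
    (mul_mem hB hb) hn hn hu' hu (by
      rw [show b * (n * h * n⁻¹) * n * (h⁻¹ * u * h) = b * n * u * h by group, hc]
      simp only [mul_assoc])
  have hu1 : u = 1 := eq_one_of_commute G z hz (G.posSub_le_posUnipotent _ hu) (by
    rw [← hh]
    conv_lhs => rw [← hue]
    group)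
  have hbe' := hbe rfl
  obtain ⟨v, hv, k, hk, rfl⟩ := G.mem_borel.1 hb
  have hnk : k * (n * h * n⁻¹) = (n * h * n⁻¹) * k := G.diagonal_comm hk (G.diagonal_normalized hn hD)
  have e : v⁻¹ * (h * v * h⁻¹) = (n * h * n⁻¹) * h⁻¹ := by
    rw [mul_assoc v k, hnk] at hbe'
    calc v⁻¹ * (h * v * h⁻¹) = v⁻¹ * (h * (v * k)) * (h * k)⁻¹ := by group
      _ = v⁻¹ * (v * (n * h * n⁻¹ * k)) * (h * k)⁻¹ := by rw [← hbe']
      _ = (n * h * n⁻¹) * h⁻¹ := by group
  have h1 : v⁻¹ * (h * v * h⁻¹) = 1 := by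
    refine (Subgroup.eq_bot_iff_forall _).1 (G.posUnipotent_inf_diagonal (F := F)) _
      (Subgroup.mem_inf.2 ⟨?_, ?_⟩)
    · exact Subgroup.mul_mem _ (Subgroup.inv_mem _ hv)
        ((Subgroup.mem_normalizer_iff.1 (G.diagonal_le_normalizer_pos hD) v).1 hv)
    · rw [e]
      exact Subgroup.mul_mem _ (G.diagonal_normalized hn hD) (Subgroup.inv_mem _ hD)
  have hv1 : v = 1 := eq_one_of_commute G z hz hv (inv_mul_eq_one.1 h1).symm
  rw [h1] at e
  have hnh : n * h * n⁻¹ = h := mul_inv_eq_one.1 e.symm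
  have hperm : G.perm n = 1 := by
    refine Equiv.ext fun r => (hinj _ _ ?_)
    obtain ⟨c, hc'⟩ := G.conj_xg_eq hn r
    have e1 : n * (h * G.xg r 1 * h⁻¹) * n⁻¹ = (n * h * n⁻¹) * (n * G.xg r 1 * n⁻¹) * (n * h * n⁻¹)⁻¹ := by group
    rw [hnh, hh, G.torus_conj_xg z r.2, hc', hc', G.torus_conj_xg z (G.perm n r).2] at e1
    have e2 := G.xg_injective (G.perm n r).2 e1
    rw [mul_one, mul_one, mul_comm] at e2
    exact (Units.ext (mul_right_cancel₀ c.ne_zero e2)).symm
  rw [hu1, hv1, one_mul, mul_one]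
  exact mul_mem hk ((G.perm_eq_one_iff hn).1 hperm)

end general

section G2

variable {F : Type*} [Field F]

local notation "SL3" => Matrix.SpecialLinearGroup (Fin 3) F

/-- The diagonal element attached to torus parameters. -/
def diagOf (z : Fin chevG2.rank → Fˣ) : Fin 3 → F :=
  (fun z : Fin 2 → Fˣ => ![((z 1 / z 0 : Fˣ) : F), ((z 0 ^ 2 / z 1 : Fˣ) : F), (((z 0)⁻¹ : Fˣ) : F)]) z

theorem det_diagOf (z : Fin chevG2.rank → Fˣ) : (Matrix.diagonal (diagOf z)).det = 1 := by
  rw [Matrix.det_diagonal, Fin.prod_univ_three]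
  simp only [diagOf, Matrix.cons_val]
  simp only [Units.val_div_eq_div_val, Units.val_pow_eq_pow_val, Units.val_inv_eq_inv_val]
  field_simp

/-- The diagonal element of `SL₃`. -/
def diagSL (z : Fin chevG2.rank → Fˣ) : SL3 := ⟨Matrix.diagonal (diagOf z), det_diagOf z⟩

theorem diag_inv_val {d e : Fin 3 → F} {g : SL3} (hg : g.1 = Matrix.diagonal d) (hde : ∀ i, d i * e i = 1) :
    (g⁻¹ : SL3).1 = Matrix.diagonal e := by
  have h : g.1 * Matrix.diagonal e = 1 := by
    rw [hg, Matrix.diagonal_mul_diagonal, ← Matrix.diagonal_one]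
    exact congrArg _ (funext hde)
  calc (g⁻¹ : SL3).1 = (g⁻¹ : SL3).1 * (g.1 * Matrix.diagonal e) := by rw [h, Matrix.mul_one]
    _ = Matrix.diagonal e := by
      rw [← Matrix.mul_assoc, ← Matrix.SpecialLinearGroup.coe_mul, inv_mul_cancel,
        Matrix.SpecialLinearGroup.coe_one, Matrix.one_mul]

/-- Values of a diagonal element on `gl₃ ⊕ V ⊕ V*`. -/
def wVal (d : Fin 3 → F) : W → F
  | .inl (a, b) => d a * (d b)⁻¹
  | .inr (.inl a) => d a
  | .inr (.inr a) => (d a)⁻¹

theorem Im_support_inl : ∀ w : W, ∀ i : Fin chevG2.rank, Im w (.inl i) ≠ 0 → ∃ a, w = .inl (a, a) := by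
  decide +kernel

theorem Im_support_inr (w : W) (r : Fin chevG2.nroots) (h : Im w (.inr r) ≠ 0) : w = posW r := by
  by_contra hne
  exact h (if_neg (Ne.symm hne))

/-- Values of a diagonal element on the adjoint module. -/
def gVal (d : Fin 3 → F) : chevG2.Idx → F
  | .inl _ => 1
  | .inr r => wVal d (posW r)

theorem φMat_diag {g : SL3} {d : Fin 3 → F} (hg : g.1 = Matrix.diagonal d) (hd : ∀ i, d i ≠ 0) :
    φMat g = Matrix.diagonal (gVal d) := by
  have hρ : ρ g = Matrix.diagonal (wVal d) := by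
    rw [ρ, diag_inv_val hg (fun i => mul_inv_cancel₀ (hd i)), hg]
    ext (⟨a, b⟩ | a | a) (⟨c, e⟩ | c | c) <;>
      simp [wVal, Matrix.diagonal_apply, Prod.ext_iff] <;> split_ifs <;> first | rfl | ring1 | grind
  rw [φMat, hρ, Matrix.mul_assoc]
  rw [show Matrix.diagonal (wVal d) * ImF F = ImF F *
      Matrix.diagonal (gVal d) from ?_,
    ← Matrix.mul_assoc, PmF_mul_ImF, Matrix.one_mul]
  ext w c
  rw [Matrix.diagonal_mul, Matrix.mul_diagonal]
  by_cases h0 : Im w c = 0
  · simp [h0]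
  · rw [mul_comm]
    congr 1
    rcases c with i | r
    · obtain ⟨a, rfl⟩ := Im_support_inl w i h0
      simp [wVal, gVal, hd a]
    · rw [Im_support_inr w r h0]; rfl

theorem torusVal_g2 (z : Fin 2 → Fˣ) (r : ℕ) (hr : r < chevG2.nroots) :
    goodG2.torusVal (D := chevG2) z r = z 0 ^ chevG2.cartan 0 r * z 1 ^ chevG2.cartan 1 r := by
  have h : goodG2.torusVal (D := chevG2) z r = ∏ k : Fin 2, z k ^ chevG2.cartan k.val r :=
    Finset.prod_congr rfl fun (k : Fin chevG2.rank) _ => by rw [goodG2.cartan_eq hr k.2]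
  rw [h, Fin.prod_univ_two]
  rfl

theorem φ_diagSL (z : Fin chevG2.rank → Fˣ) : φ (diagSL z) = goodG2.torus z := by
  apply Units.ext
  rw [coe_φ, goodG2.coe_torus, φMat_diag (g := diagSL z) rfl (fun i => by
    fin_cases i <;> exact Units.ne_zero _), rdiag]
  congr 1
  funext x
  rcases x with i | r
  · rfl
  · simp only [Sum.elim_inr, gVal]
    rw [torusVal_g2 z r r.2]
    fin_cases r <;>
      simp [Fin.prod_univ_two, chevG2, chevG2CartanSR, ChevalleyDatum.cartan, posW, wVal, diagOf] <;>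
      (try field_simp)

theorem diagonal_eq_image {g : GL chevG2.Idx F} (hg : g ∈ chevG2.diagonalSubgroup F) :
    ∃ z, g = φ (diagSL z) := by
  obtain ⟨z, rfl⟩ := goodG2.mem_diagonal.1 hg
  exact ⟨z, (φ_diagSL z).symm⟩

end G2

end Cfsg.Agent.H23.G2Torus
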